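/-
helper743: the odd-dimensional orthogonal groups, own characteristic (row of S4129).
-/
import Mathlib
import Cfsg.Agent.H743.RegOmTool
import Cfsg.Agent.H377.OddThree
import Cfsg.Agent.Lib.Zsigmondy
import Cfsg.Prelude.Def_LieTypeChar

set_option autoImplicit false
set_option linter.unusedSectionVars false
set_option linter.style.haveILetI false

namespace Cfsg.Agent.H743.RegOm

open Module QuadraticMap Cfsg
open Cfsg.Agent.LieClassical.OrthCore Cfsg.Agent.LieClassical.OrthForms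
open Cfsg.Agent.H182.Cent (rho rho_apply rho_injective)
open Cfsg.Agent.H524.DirRed Cfsg.Agent.H524.LinReg

section

variable {F : Type} [Field F] [Finite F]

theorem card_idx (m : ℕ) : Fintype.card (Unit ⊕ (Fin m ⊕ Fin m)) = 2 * m + 1 := by
  simp only [Fintype.card_sum, Fintype.card_unit, Fintype.card_fin]
  omega

theorem finrank_idx (m : ℕ) : finrank F (Unit ⊕ (Fin m ⊕ Fin m) → F) = 2 * m + 1 := by
  rw [Module.finrank_fintype_fun_eq_card, card_idx]

/-- elements of `Ω_{2m+1}(q)` from isometries in dimension `2n` -/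
theorem exists_odd (h2 : (2 : F) ≠ 0) {m n : ℕ} (hm : 3 ≤ m) (hnm : n ≤ m) {ε : ℤ} {M : ℕ}
    (h : Cfsg.Agent.H377.Elt F n ε M) :
    ∃ z : Omega F ⇑(oddForm m F), orderOf z = M / M.gcd 2 ∧
      2 * (m - n) + 1 ≤ finrank F (fx (rho (⇑(oddForm m F))) z) := by
  obtain ⟨hN0, Q, g, hQ, hs, hg, ho⟩ := h
  have hR : Nondeg (Cfsg.Agent.H377.sumQ Q (oddForm (m - n) F)) :=
    Cfsg.Agent.H377.sumQ_nondeg hQ (nondeg_oddForm (m - n) F h2)
  have hfr : finrank F ((Fin (2 * n) → F) × (Unit ⊕ (Fin (m - n) ⊕ Fin (m - n)) → F)) = 2 * m + 1 := by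
    rw [Module.finrank_prod, Module.finrank_fin_fun, finrank_idx]
    omega
  obtain ⟨c, e, hc, he⟩ := Cfsg.Agent.H377.exists_similar_odd hfr _ hR
  obtain ⟨z, hz1, hz2⟩ := exists_elt (oddForm m F) (nondeg_oddForm m F h2) (by rw [card_idx]; omega) Q
    (oddForm (m - n) F) e c hc he g hg ho
  rw [finrank_idx] at hz2
  exact ⟨z, hz1, hz2⟩

theorem regB_odd {l : ℕ} [hch : CharP F l] (ho : Odd (Nat.card F)) {m : ℕ} (hm : 3 ≤ m) {q : ℕ} (hq : q.Prime)
    (hql : q ≠ l) (hd : q ∣ Nat.card (POmega F ⇑(oddForm m F))) : RegB (POmega F ⇑(oddForm m F)) l q := by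
  classical
  have h2 : (2 : F) ≠ 0 := Cfsg.Agent.H377.OOdd.two_ne_zero_of_odd ho
  have hl : l.Prime := CharP.char_is_prime F l
  haveI : Fact l.Prime := ⟨hl⟩
  letI := Fintype.ofFinite F
  obtain ⟨a, -, ha⟩ := FiniteField.card F l
  rw [← Nat.card_eq_fintype_card] at ha
  set q0 := Nat.card F with hq0
  have hq01 : 1 < q0 := Finite.one_lt_card
  have hlo : Odd l := by
    by_contra hc
    rw [Nat.not_odd_iff_even] at hc
    rw [ha] at ho
    exact (Nat.not_even_iff_odd.2 ho) (hc.pow_of_ne_zero a.ne_zero)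
  have hl2 : l ≠ 2 := by
    rintro rfl
    exact absurd hlo (by decide)
  -- data
  set Q := oddForm m F with hQdef
  have hnd : Nondeg Q := nondeg_oddForm m F h2
  have hN : finrank F (Unit ⊕ (Fin m ⊕ Fin m) → F) = 2 * m + 1 := finrank_idx m
  have hcen : ∀ z ∈ Subgroup.center (Omega F ⇑Q), rho (⇑Q) z = 1 ∨ rho (⇑Q) z = -1 := by
    intro z hz
    have hsing : ∃ u : Unit ⊕ (Fin m ⊕ Fin m) → F, u ≠ 0 ∧ Q u = 0 := by
      obtain ⟨w, hw0, hw, -⟩ := Cfsg.Agent.LieClassical.OrthFinite.exists_sing_perp (Q := Q) (n := 0) ![] (by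
        rw [hN]; omega)
      exact ⟨w, hw0, hw⟩
    rw [Cfsg.Agent.LieClassical.OrthCenter.mem_center_omega_iff (Cfsg.Agent.H182.Sign.nondegenerate_iff_nondeg.2 hnd)
      (by rw [card_idx]; omega) hsing] at hz
    rcases hz with h | h
    · left
      apply LinearMap.ext
      intro v
      rw [rho_apply, h, Matrix.one_mulVec]
      rfl
    · right
      apply LinearMap.ext
      intro v
      rw [rho_apply, h, Matrix.neg_mulVec, Matrix.one_mulVec]
      rfl
  have hπ := QuotientGroup.mk'_surjective (Subgroup.center (Omega F ⇑Q))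
  have hker := mk_comm (F := F) (⇑Q)
  have hinj := rho_injective (F := F) (⇑Q)
  have hnk := fun {r : ℕ} (hr : r.Prime) (hr2 : r ≠ 2) => not_dvd_ker hcen hr hr2
  have hdvdX : ∀ r : ℕ, r ∣ Nat.card (POmega F ⇑Q) → r ∣ Nat.card (Omega F ⇑Q) := fun r h =>
    h.trans (Subgroup.card_dvd_of_surjective _ hπ)
  -- the order
  have hord : 2 * Nat.card (POmega F ⇑Q) = q0 ^ (m ^ 2) * ∏ i ∈ Finset.range m, (q0 ^ (2 * (i + 1)) - 1) := by
    have := Cfsg.Agent.S0292.result (F := F) (q := q0) (by rw [hq0, Nat.card_eq_fintype_card]) ho m hm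
    rw [← this, hQdef, coe_oddForm]
  -- the Zsigmondy prime
  obtain ⟨r, hr, hro⟩ := Cfsg.Agent.Lib.Zsigmondy.exists_prime_orderOf (a := q0) (n := 2 * m) (by omega) (by omega)
    (fun h => by omega) (fun h => by
      rw [h.1] at ho
      exact absurd ho (by decide))
  have hrd : r ∣ q0 ^ (2 * m) - 1 := (Cfsg.Agent.Lib.Zsigmondy.dvd_pow_sub_one_iff (by omega) _).2 (by rw [hro])
  have hrq : ¬ r ∣ q0 := by
    intro h
    have h0 : ((q0 : ℕ) : ZMod r) = 0 := (ZMod.natCast_eq_zero_iff q0 r).2 h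
    haveI : Fact r.Prime := ⟨hr⟩
    rw [h0] at hro
    have : orderOf (0 : ZMod r) = 0 := orderOf_eq_zero_iff'.2 fun n hn => by rw [zero_pow hn.ne']; exact zero_ne_one
    omega
  have hr2 : r ≠ 2 := by
    rintro rfl
    have h1 := Cfsg.Agent.Lib.Zsigmondy.orderOf_dvd_pred hr hrq
    rw [hro] at h1
    have := Nat.le_of_dvd (by norm_num) h1
    omega
  have hrl : r ≠ l := by
    rintro rfl
    exact hrq (ha ▸ dvd_pow_self r a.ne_zero)
  have hrS : r ∣ Nat.card (POmega F ⇑Q) := by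
    have h1 : r ∣ 2 * Nat.card (POmega F ⇑Q) := by
      rw [hord]
      refine Dvd.dvd.mul_left (hrd.trans ?_) _
      have := Finset.dvd_prod_of_mem (fun i => q0 ^ (2 * (i + 1)) - 1) (Finset.mem_range.2 (show m - 1 < m by omega))
      rwa [show m - 1 + 1 = m by omega] at this
    exact (((Nat.coprime_primes hr Nat.prime_two).2 hr2).dvd_mul_left).1 h1
  -- upper bound for the fixed space
  have hup : ∀ {z : Omega F ⇑Q} {k : ℕ}, k.Prime → k ≠ l → orderOf z = k →
      finrank F (fx (rho (⇑Q)) z) + 2 ≤ 2 * m + 1 := by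
    intro z k hk hkl hz
    rw [← hN]
    refine fx_two (rho (⇑Q)) hinj (det_rho _ z) (k := k) ?_ (by rw [← hz, pow_orderOf_eq_one]) ?_
    · intro h
      have h1 : l ∣ k := (CharP.cast_eq_zero_iff F l k).1 h
      exact hkl ((Nat.prime_dvd_prime_iff_eq hl hk).1 h1).symm
    · rintro rfl
      rw [orderOf_one] at hz
      exact hk.one_lt.ne hz
  have hex0 : ∀ {n : ℕ} {ε : ℤ} {M : ℕ}, n ≤ m → Cfsg.Agent.H377.Elt F n ε M →
      ∃ z : Omega F ⇑Q, orderOf z = M / M.gcd 2 ∧ 2 * (m - n) + 1 ≤ finrank F (fx (rho (⇑Q)) z) :=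
    fun hn h => exists_odd h2 hm hn h
  -- an involution
  obtain ⟨s, hs, hsf⟩ : ∃ s : Omega F ⇑Q, orderOf s = 2 ∧ 2 * m - 1 ≤ finrank F (fx (rho (⇑Q)) s) := by
    obtain ⟨ε, -, h4⟩ := Cfsg.Agent.H377.elt_four_one (F := F) ho
    obtain ⟨z, hz1, hz2⟩ := hex0 (by omega) h4
    exact ⟨z, by rw [hz1]; decide, by omega⟩
  have hsf' := hup Nat.prime_two (Ne.symm hl2) hs
  have hcF : orderOf ((Nat.card F : ℕ) : ZMod r) = 2 * m := hro
  by_cases hex : ∃ n, 1 ≤ n ∧ n < m ∧ q ∣ q0 ^ (2 * n) - 1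
  · -- the intermediate element
    obtain ⟨y, hy, hyf⟩ : ∃ y : Omega F ⇑Q, orderOf y = q ∧ 3 ≤ finrank F (fx (rho (⇑Q)) y) := by
      by_cases hq2 : q = 2
      · exact ⟨s, by rw [hs, hq2], by omega⟩
      · obtain ⟨n, hn1, hnm, hn⟩ := hex
        have hqo := hq.odd_of_ne_two hq2
        have hgcd : q / q.gcd 2 = q := by
          have : q.gcd 2 = 1 := (Nat.coprime_two_right.2 hqo)
          rw [this, Nat.div_one]
        rcases Cfsg.Agent.H377.OOdd.elt_of_dvd (F := F) hn1 hq hn with h | h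
        · obtain ⟨z, hz1, hz2⟩ := hex0 (by omega) h
          exact ⟨z, by rw [hz1, hgcd], by omega⟩
        · obtain ⟨z, hz1, hz2⟩ := hex0 (by omega) h
          exact ⟨z, by rw [hz1, hgcd], by omega⟩
    have hyf' := hup hq hql hy
    exact regB_of_mid hπ hker hinj hl hq hr hrl (hdvdX r hrS) (hnk hr hr2) hcF (by omega) (k := 1)
      (by rw [pow_one, hy]) (by rw [hN]; omega) (by omega)
  · -- the large case
    push Not at hex
    have hq2 : q ≠ 2 := by
      rintro rfl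
      refine hex 1 le_rfl (by omega) ?_
      have h1 : Odd (q0 ^ (2 * 1)) := ho.pow
      obtain ⟨k, hk⟩ := h1
      rw [hk]
      exact ⟨k, by omega⟩
    have hqd : q ∣ q0 ^ (2 * m) - 1 := by
      have h1 : q ∣ 2 * Nat.card (POmega F ⇑Q) := Dvd.dvd.mul_left hd 2
      rw [hord] at h1
      rcases (Nat.Prime.dvd_mul hq).1 h1 with h3 | h3
      · exfalso
        rw [ha] at h3
        exact hql ((Nat.prime_dvd_prime_iff_eq hq hl).1 (hq.dvd_of_dvd_pow (hq.dvd_of_dvd_pow h3)))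
      · obtain ⟨i, hi, hi2⟩ := (hq.prime.dvd_finsetProd_iff _).1 h3
        rw [Finset.mem_range] at hi
        rcases Nat.lt_or_ge (i + 1) m with h4 | h4
        · exact absurd hi2 (hex (i + 1) (by omega) h4)
        · rwa [show i + 1 = m by omega] at hi2
    set f := orderOf ((q0 : ℕ) : ZMod q) with hf
    have hf1 : f ∣ 2 * m := (Cfsg.Agent.Lib.Zsigmondy.dvd_pow_sub_one_iff (by omega) _).1 hqd
    have hf2 : ¬ f ∣ 2 * 1 := fun h =>
      hex 1 le_rfl (by omega) ((Cfsg.Agent.Lib.Zsigmondy.dvd_pow_sub_one_iff (by omega) _).2 h)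
    have hf0 : f ≠ 0 := by
      intro h
      rw [h] at hf1
      have := Nat.eq_zero_of_zero_dvd hf1
      omega
    have hf3 : 3 ≤ f := by
      by_contra hlt
      have : f = 1 ∨ f = 2 := by omega
      rcases this with h | h
      · exact hf2 (by rw [h]; exact one_dvd _)
      · exact hf2 (by rw [h])
    refine regB_of_small hπ hker hinj hl hq hr hrl (hdvdX r hrS) (hnk hr hr2) hcF (by omega) hd (hnk hq hq2) (f := f)
      hf.symm (s := s) ?_ (by rw [hN]; omega) (by omega)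
    rw [hs]
    intro h
    exact hl2 ((Nat.prime_dvd_prime_iff_eq hl Nat.prime_two).1 h)

end

universe u

/-- **Odd-dimensional orthogonal groups.** -/
theorem regB_omegaOdd {S : Type u} [Group S] [Finite S] [IsSimpleGroup S] {l : ℕ} (h : Cfsg.IsPOmegaOddChar l S)
    {q : ℕ} (hq : q.Prime) (hql : q ≠ l) (hd : q ∣ Nat.card S) : RegB S l q := by
  obtain ⟨F, _, _, _, m, hm, ho, ⟨e⟩⟩ := h
  rw [← Nat.card_eq_fintype_card] at ho
  rw [Nat.card_congr e.toEquiv] at hd
  have h1 : RegB (POmega F ⇑(oddForm m F)) l q := regB_odd ho hm hq hql (by rw [coe_oddForm]; exact hd)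
  rw [coe_oddForm] at h1
  exact h1.congr e.symm

end Cfsg.Agent.H743.RegOm
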