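import Cfsg.Agent.H743.RowThree
import Cfsg.Agent.H903.MeetInD4
import Cfsg.Agent.S0817
import Cfsg.Agent.S0293
import Cfsg.Agent.S0296

/-!
# S5761: `p = 3`, `T = PΩ₈⁺(3)` (helper743, task 2819)
-/

set_option autoImplicit false

namespace Cfsg.Agent.H743.RowThree

open Subgroup Cfsg Cfsg.Agent.H903.SylMeet Cfsg.Agent.H233.B3

theorem card_o8 {F : Type} [Field F] [Fintype F] (hF : Fintype.card F = 3) :
    Nat.card (POmega F (quadFormPlus 4 F)) = 4952179814400 := by
  have h := S0293.result hF 4 le_rfl
  rw [show Nat.gcd 4 (3 ^ 4 - 1) = 4 by decide] at h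
  simp only [Finset.prod_range_succ, Finset.prod_range_zero] at h
  norm_num at h
  omega

/-- **`Row3 3 (PΩ₈⁺(3))`** -/
theorem row3_o8 {F : Type} [Field F] [Fintype F] (hF : Fintype.card F = 3) :
    Row3 3 (POmega F (quadFormPlus 4 F)) := by
  have h3 : Fact (Nat.Prime 3) := ⟨Nat.prime_three⟩
  have hs : IsSimpleGroup (POmega F (quadFormPlus 4 F)) := S0296.result 4 le_rfl
  have hcard := card_o8 hF
  have hfin : Finite (POmega F (quadFormPlus 4 F)) := Nat.finite_of_card_ne_zero (by rw [hcard]; norm_num)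
  have hT : ¬ IsMulCommutative (POmega F (quadFormPlus 4 F)) := by
    intro hc
    have h4 : (Nat.card (POmega F (quadFormPlus 4 F))).Prime := by
      let _ : CommGroup (POmega F (quadFormPlus 4 F)) := { (inferInstance : Group (POmega F (quadFormPlus 4 F))) with
        mul_comm := hc.is_comm.comm }
      exact IsSimpleGroup.prime_card
    rw [hcard] at h4
    have h5 := (Nat.prime_dvd_prime_iff_eq Nat.prime_two h4).1 (by norm_num)
    norm_num at h5
  have hch : CharP F 3 := by
    obtain ⟨r, hr⟩ := CharP.exists F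
    obtain ⟨n, hrp, hc⟩ := FiniteField.card F r
    have : r = 3 := by
      rw [hF] at hc
      have h5 : r ∣ 3 := by
        rw [hc]
        exact dvd_pow_self r n.pos.ne'
      exact (Nat.prime_dvd_prime_iff_eq hrp Nat.prime_three).1 h5
    rw [← this]
    exact hr
  have hm := H903.MeetInD4.meetIn3_D4_char hT
  refine row3_of_meetIn_prime (p := 3) (m := 175) hT hm ?_ (by norm_num) (by rw [hcard]; norm_num) (by norm_num)
  have h1 := S0817.result 3 1 le_rfl (by rw [hF]; norm_num : Fintype.card F = 3 ^ 1) 4 le_rfl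
  have h2 : Nat.card (MulAut (POmega F (quadFormPlus 4 F))) = 24 * Nat.card (POmega F (quadFormPlus 4 F)) := by
    rw [h1]
    norm_num
  have h4 := Subgroup.card_eq_card_quotient_mul_card_subgroup
    ((MulAut.conj : POmega F (quadFormPlus 4 F) →* MulAut (POmega F (quadFormPlus 4 F))).range)
  have h5 : Nat.card ((MulAut.conj : POmega F (quadFormPlus 4 F) →* MulAut (POmega F (quadFormPlus 4 F))).range) =
      Nat.card (POmega F (quadFormPlus 4 F)) :=
    (Nat.card_congr (MonoidHom.ofInjective (conj_injective hT)).toEquiv).symm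
  rw [h5, h2] at h4
  have h6 := Nat.eq_of_mul_eq_mul_right (by rw [hcard]; norm_num) h4
  rw [← h6]
  norm_num

end Cfsg.Agent.H743.RowThree
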